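import Mathlib
import Cfsg.Agent.Lib.Helper35.JR.Defs

/-!
# JR (S3206), package [SYL4]: abelian Sylow 2-subgroups of `PSL₂(F)` are conjugates of `V₀`
-/

set_option autoImplicit false

namespace Cfsg.Agent.Lib.Helper84.JR

open Cfsg.Agent.Lib.Helper35.JR

universe u

section

variable {F : Type u} [Field F]

theorem syl4_neg_one : (-1 : Matrix (Fin 2) (Fin 2) F) = !![-1, 0; 0, -1] := by
  ext i j; fin_cases i <;> fin_cases j <;> simp

theorem syl4_neg (x11 x12 x21 x22 : F) :
    -(!![x11, x12; x21, x22] : Matrix (Fin 2) (Fin 2) F) = !![-x11, -x12; -x21, -x22] := by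
  ext i j; fin_cases i <;> fin_cases j <;> simp

theorem syl4_ext {x11 x12 x21 x22 y11 y12 y21 y22 : F} (h11 : x11 = y11) (h12 : x12 = y12)
    (h21 : x21 = y21) (h22 : x22 = y22) :
    (!![x11, x12; x21, x22] : Matrix (Fin 2) (Fin 2) F) = !![y11, y12; y21, y22] := by
  subst h11 h12 h21 h22; rfl

theorem syl4_mk_eq_one_iff (x : Matrix.SpecialLinearGroup (Fin 2) F) :
    (QuotientGroup.mk x : Matrix.ProjectiveSpecialLinearGroup (Fin 2) F) = 1 ↔
      x.val = 1 ∨ x.val = -1 := by
  rw [QuotientGroup.eq_one_iff, Matrix.SpecialLinearGroup.mem_center_iff]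
  constructor
  · rintro ⟨r, hr, hx⟩
    have hr2 : r ^ 2 = 1 := by simpa using hr
    have hr' : r = 1 ∨ r = -1 := by
      have : (r - 1) * (r + 1) = 0 := by linear_combination hr2
      rcases mul_eq_zero.mp this with h | h
      · left; linear_combination h
      · right; linear_combination h
    rcases hr' with rfl | rfl
    · left; rw [← hx, map_one]
    · right; rw [← hx, map_neg, map_one]
  · rintro (h | h)
    · exact ⟨1, by simp, by rw [h, map_one]⟩
    · exact ⟨-1, by simp, by rw [h, map_neg, map_one]⟩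

theorem syl4_mk_eq_iff (x y : Matrix.SpecialLinearGroup (Fin 2) F) :
    (QuotientGroup.mk x : Matrix.ProjectiveSpecialLinearGroup (Fin 2) F) = QuotientGroup.mk y ↔
      x.val = y.val ∨ x.val = -y.val := by
  have h1 : (QuotientGroup.mk x : Matrix.ProjectiveSpecialLinearGroup (Fin 2) F) =
      QuotientGroup.mk y ↔
      (QuotientGroup.mk (x * y⁻¹) : Matrix.ProjectiveSpecialLinearGroup (Fin 2) F) = 1 := by
    rw [QuotientGroup.mk_mul, QuotientGroup.mk_inv, mul_inv_eq_one]
  rw [h1, syl4_mk_eq_one_iff]
  have hy1 : (y⁻¹).val * y.val = 1 := congrArg Subtype.val (inv_mul_cancel y)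
  have hy2 : y.val * (y⁻¹).val = 1 := congrArg Subtype.val (mul_inv_cancel y)
  have hx : (x * y⁻¹).val = x.val * (y⁻¹).val := rfl
  rw [hx]
  constructor
  · rintro (h | h)
    · left
      calc x.val = x.val * ((y⁻¹).val * y.val) := by rw [hy1, mul_one]
        _ = (x.val * (y⁻¹).val) * y.val := by rw [mul_assoc]
        _ = y.val := by rw [h, one_mul]
    · right
      calc x.val = x.val * ((y⁻¹).val * y.val) := by rw [hy1, mul_one]
        _ = (x.val * (y⁻¹).val) * y.val := by rw [mul_assoc]
        _ = -y.val := by rw [h, neg_mul, one_mul]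
  · rintro (h | h)
    · left; rw [h, hy2]
    · right; rw [h, neg_mul, hy2]

theorem syl4_mk_eq_of_smul (M N : Matrix.SpecialLinearGroup (Fin 2) F) (c : F)
    (hc : M.val = c • N.val) :
    (QuotientGroup.mk M : Matrix.ProjectiveSpecialLinearGroup (Fin 2) F) = QuotientGroup.mk N := by
  have hdet : c ^ 2 = 1 := by
    have h1 := M.2
    rw [hc, Matrix.det_smul, N.2] at h1
    simpa using h1
  have hc' : c = 1 ∨ c = -1 := by
    have : (c - 1) * (c + 1) = 0 := by linear_combination hdet
    rcases mul_eq_zero.mp this with h | h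
    · left; linear_combination h
    · right; linear_combination h
  rw [syl4_mk_eq_iff]
  rcases hc' with rfl | rfl
  · left; rw [hc, one_smul]
  · right; rw [hc, neg_smul, one_smul]

theorem syl4_AA : pA F * pA F = 1 := by
  unfold pA
  rw [← QuotientGroup.mk_mul, syl4_mk_eq_one_iff]
  right
  show (!![0, -1; 1, 0] * !![0, -1; 1, 0] : Matrix (Fin 2) (Fin 2) F) = -1
  rw [Matrix.mul_fin_two, syl4_neg_one]
  exact syl4_ext (by ring) (by ring) (by ring) (by ring)

theorem syl4_BB (a b : F) (h : a ^ 2 + b ^ 2 = -1) : pB a b h * pB a b h = 1 := by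
  unfold pB
  rw [← QuotientGroup.mk_mul, syl4_mk_eq_one_iff]
  right
  show (!![a, b; b, -a] * !![a, b; b, -a] : Matrix (Fin 2) (Fin 2) F) = -1
  rw [Matrix.mul_fin_two, syl4_neg_one]
  exact syl4_ext (by linear_combination h) (by ring) (by ring) (by linear_combination h)

theorem syl4_BA (a b : F) (h : a ^ 2 + b ^ 2 = -1) : pB a b h * pA F = pA F * pB a b h := by
  unfold pB pA
  rw [← QuotientGroup.mk_mul, ← QuotientGroup.mk_mul, syl4_mk_eq_iff]
  right
  show (!![a, b; b, -a] * !![0, -1; 1, 0] : Matrix (Fin 2) (Fin 2) F) =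
    -(!![0, -1; 1, 0] * !![a, b; b, -a])
  rw [Matrix.mul_fin_two, Matrix.mul_fin_two, syl4_neg]
  exact syl4_ext (by ring) (by ring) (by ring) (by ring)

theorem syl4_A_ne_one (h2 : (2 : F) ≠ 0) : pA F ≠ 1 := by
  unfold pA
  rw [Ne, syl4_mk_eq_one_iff]
  rintro (e | e)
  · have e00 : (0 : F) = 1 := by
      have := congrFun (congrFun e 0) 0
      simpa [elA] using this
    exact zero_ne_one e00
  · have e00 : (0 : F) = -1 := by
      have := congrFun (congrFun e 0) 0
      simpa [elA] using this
    apply h2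
    linear_combination (2 : F) * e00

theorem syl4_B_ne_one (h2 : (2 : F) ≠ 0) (a b : F) (h : a ^ 2 + b ^ 2 = -1) : pB a b h ≠ 1 := by
  unfold pB
  rw [Ne, syl4_mk_eq_one_iff]
  rintro (e | e)
  · have e00 : a = 1 := by
      have := congrFun (congrFun e 0) 0
      simpa [elB] using this
    have e11 : -a = 1 := by
      have := congrFun (congrFun e 1) 1
      simpa [elB] using this
    apply h2
    linear_combination (-1 : F) * e00 - e11
  · have e00 : a = -1 := by
      have := congrFun (congrFun e 0) 0
      simpa [elB] using this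
    have e11 : -a = -1 := by
      have := congrFun (congrFun e 1) 1
      simpa [elB] using this
    apply h2
    linear_combination e00 + e11

theorem syl4_A_ne_B (h2 : (2 : F) ≠ 0) (a b : F) (h : a ^ 2 + b ^ 2 = -1) :
    pA F ≠ pB a b h := by
  unfold pA pB
  rw [Ne, syl4_mk_eq_iff]
  rintro (e | e)
  · have e01 : (-1 : F) = b := by
      have := congrFun (congrFun e 0) 1
      simpa [elA, elB] using this
    have e10 : (1 : F) = b := by
      have := congrFun (congrFun e 1) 0
      simpa [elA, elB] using this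
    apply h2
    linear_combination e10 - e01
  · have e01 : (-1 : F) = -b := by
      have := congrFun (congrFun e 0) 1
      simpa [elA, elB] using this
    have e10 : (1 : F) = -b := by
      have := congrFun (congrFun e 1) 0
      simpa [elA, elB] using this
    apply h2
    linear_combination e10 - e01

theorem syl4_sq (a b : F) (h : a ^ 2 + b ^ 2 = -1)
    {x : Matrix.ProjectiveSpecialLinearGroup (Fin 2) F} (hx : x ∈ V0 a b h) : x * x = 1 := by
  have hAA := syl4_AA (F := F)
  have hBB := syl4_BB a b h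
  have hBA := syl4_BA a b h
  have hAA' : ∀ y, pA F * (pA F * y) = y := fun y => by rw [← mul_assoc, hAA, one_mul]
  have hBB' : ∀ y, pB a b h * (pB a b h * y) = y := fun y => by rw [← mul_assoc, hBB, one_mul]
  have hBA' : ∀ y, pB a b h * (pA F * y) = pA F * (pB a b h * y) := fun y => by
    rw [← mul_assoc, hBA, mul_assoc]
  simp only [V0, Set.mem_insert_iff, Set.mem_singleton_iff] at hx
  rcases hx with rfl | rfl | rfl | rfl
  · exact one_mul 1
  · exact hAA
  · exact hBB
  · rw [mul_assoc, hBA', hBB, hAA']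

/-- `V₀` as a subgroup of `PSL₂(F)`. -/
def syl4V (a b : F) (h : a ^ 2 + b ^ 2 = -1) :
    Subgroup (Matrix.ProjectiveSpecialLinearGroup (Fin 2) F) where
  carrier := V0 a b h
  mul_mem' := by
    intro x y hx hy
    have hAA := syl4_AA (F := F)
    have hBB := syl4_BB a b h
    have hBA := syl4_BA a b h
    have hAA' : ∀ y, pA F * (pA F * y) = y := fun y => by rw [← mul_assoc, hAA, one_mul]
    have hBB' : ∀ y, pB a b h * (pB a b h * y) = y := fun y => by rw [← mul_assoc, hBB, one_mul]
    have hBA' : ∀ y, pB a b h * (pA F * y) = pA F * (pB a b h * y) := fun y => by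
      rw [← mul_assoc, hBA, mul_assoc]
    simp only [V0, Set.mem_insert_iff, Set.mem_singleton_iff] at hx hy ⊢
    rcases hx with rfl | rfl | rfl | rfl <;> rcases hy with rfl | rfl | rfl | rfl
    · left; exact one_mul 1
    · right; left; exact one_mul _
    · right; right; left; exact one_mul _
    · right; right; right; exact one_mul _
    · right; left; exact mul_one _
    · left; exact hAA
    · right; right; right; rfl
    · right; right; left; exact hAA' _
    · right; right; left; exact mul_one _
    · right; right; right; exact hBA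
    · left; exact hBB
    · right; left; rw [hBA', hBB, mul_one]
    · right; right; right; exact mul_one _
    · right; right; left; rw [mul_assoc, hBA, hAA']
    · right; left; rw [mul_assoc, hBB, mul_one]
    · left; rw [mul_assoc, hBA', hBB, hAA']
  one_mem' := by
    show (1 : Matrix.ProjectiveSpecialLinearGroup (Fin 2) F) ∈ V0 a b h
    simp [V0]
  inv_mem' := by
    intro x hx
    have hxx : x * x = 1 := syl4_sq a b h hx
    have : x⁻¹ = x := inv_eq_of_mul_eq_one_left hxx
    rw [this]; exact hx

theorem syl4_ncard (h2 : (2 : F) ≠ 0) (a b : F) (h : a ^ 2 + b ^ 2 = -1) :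
    (V0 a b h).ncard = 4 := by
  have hA1 := syl4_A_ne_one (F := F) h2
  have hB1 := syl4_B_ne_one h2 a b h
  have hAB := syl4_A_ne_B h2 a b h
  have hBB := syl4_BB a b h
  have n1 : ({pA F * pB a b h} : Set (Matrix.ProjectiveSpecialLinearGroup (Fin 2) F)).ncard = 1 :=
    Set.ncard_singleton _
  have n2 : ({pB a b h, pA F * pB a b h} :
      Set (Matrix.ProjectiveSpecialLinearGroup (Fin 2) F)).ncard = 2 := by
    rw [Set.ncard_insert_of_notMem _ (Set.toFinite _), n1]
    simp only [Set.mem_singleton_iff]
    intro e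
    exact hA1 (right_eq_mul.mp e)
  have n3 : ({pA F, pB a b h, pA F * pB a b h} :
      Set (Matrix.ProjectiveSpecialLinearGroup (Fin 2) F)).ncard = 3 := by
    rw [Set.ncard_insert_of_notMem _ (Set.toFinite _), n2]
    simp only [Set.mem_insert_iff, Set.mem_singleton_iff]
    rintro (e | e)
    · exact hAB e
    · exact hB1 (left_eq_mul.mp e)
  unfold V0
  rw [Set.ncard_insert_of_notMem _ (Set.toFinite _), n3]
  simp only [Set.mem_insert_iff, Set.mem_singleton_iff]
  rintro (e | e | e)
  · exact hA1 e.symm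
  · exact hB1 e.symm
  · apply hAB
    have e1 : pA F = (pB a b h)⁻¹ := eq_inv_of_mul_eq_one_left e.symm
    rw [e1]
    exact inv_eq_of_mul_eq_one_left hBB

end

/-- [SYL4] -/
theorem pkgSyl4 : PkgV0.{u} → PkgSyl4.{u} := by
  intro hV0 F _ _ h2 a b h hab P
  classical
  have : Finite (Matrix.ProjectiveSpecialLinearGroup (Fin 2) F) := inferInstance
  have hVp : IsPGroup 2 (syl4V a b h) := by
    rintro ⟨x, hx⟩
    refine ⟨1, ?_⟩
    have hxx : x * x = 1 := syl4_sq a b h hx
    apply Subtype.ext
    simp [pow_two, hxx]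
  obtain ⟨P0, hP0⟩ := hVp.exists_le_sylow
  have hP0V : ∀ x, x ∈ (P0 : Subgroup (Matrix.ProjectiveSpecialLinearGroup (Fin 2) F)) ↔
      x ∈ V0 a b h := by
    intro x
    constructor
    · intro hx
      have mA : pA F ∈ (P0 : Subgroup (Matrix.ProjectiveSpecialLinearGroup (Fin 2) F)) :=
        hP0 (show pA F ∈ V0 a b h by simp [V0])
      have mB : pB a b h ∈ (P0 : Subgroup (Matrix.ProjectiveSpecialLinearGroup (Fin 2) F)) :=
        hP0 (show pB a b h ∈ V0 a b h by simp [V0])
      have cA : x * pA F = pA F * x := hab P0 x hx (pA F) mA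
      have cB : x * pB a b h = pB a b h * x := hab P0 x hx (pB a b h) mB
      obtain ⟨M, rfl⟩ := QuotientGroup.mk_surjective x
      have hA := (syl4_mk_eq_iff (M * elA F) (elA F * M)).mp cA
      have hB := (syl4_mk_eq_iff (M * elB a b h) (elB a b h * M)).mp cB
      obtain ⟨c, hc | hc | hc | hc⟩ := hV0 F h2 a b h M.val hA hB
      · have e := syl4_mk_eq_of_smul M 1 c hc
        rw [e]
        left; rfl
      · have e := syl4_mk_eq_of_smul M (elA F) c hc
        rw [e]
        right; left; rfl
      · have e := syl4_mk_eq_of_smul M (elB a b h) c hc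
        rw [e]
        right; right; left; rfl
      · have e := syl4_mk_eq_of_smul M (elA F * elB a b h) c hc
        rw [e]
        right; right; right; rfl
    · intro hx; exact hP0 hx
  have hcard0 : Nat.card ↥(P0 : Subgroup (Matrix.ProjectiveSpecialLinearGroup (Fin 2) F)) = 4 := by
    have hset : ((P0 : Subgroup (Matrix.ProjectiveSpecialLinearGroup (Fin 2) F)) :
        Set (Matrix.ProjectiveSpecialLinearGroup (Fin 2) F)) = V0 a b h := Set.ext hP0V
    rw [← syl4_ncard h2 a b h, ← hset]
    exact Nat.card_coe_set_eq _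
  obtain ⟨g, hg⟩ := MulAction.exists_smul_eq (Matrix.ProjectiveSpecialLinearGroup (Fin 2) F) P0 P
  have hmem : ∀ x, x ∈ (P : Subgroup (Matrix.ProjectiveSpecialLinearGroup (Fin 2) F)) ↔
      g⁻¹ * x * g ∈ V0 a b h := by
    intro x
    rw [← hP0V, ← hg, Sylow.smul_def, Sylow.pointwise_smul_def,
      Subgroup.mem_pointwise_smul_iff_inv_smul_mem, MulAut.smul_def, MulAut.conj_inv_apply]
  refine ⟨?_, ?_, g, hmem⟩
  · rw [← hcard0]
    exact Nat.card_congr (Sylow.equiv P P0).toEquiv
  · intro x hx
    have hx' := (hmem x).mp hx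
    have hsq := syl4_sq a b h hx'
    have e : x * x = g * ((g⁻¹ * x * g) * (g⁻¹ * x * g)) * g⁻¹ := by group
    rw [pow_two, e, hsq]
    group

end Cfsg.Agent.Lib.Helper84.JR
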