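import Mathlib
import Cfsg.Agent.Lib.Helper35.JR.Defs

/-!
# JR (S3206), package [V0]: matrices commuting with `A`, `B` up to sign
-/

set_option autoImplicit false

namespace Cfsg.Agent.Lib.Helper84.JR

open Cfsg.Agent.Lib.Helper35.JR

universe u

theorem two_cancel {F : Type u} [Field F] (h2 : (2 : F) ≠ 0) {z : F} (h : 2 * z = 0) : z = 0 :=
  (mul_eq_zero.mp h).resolve_left h2

/-- [V0] -/
theorem pkgV0 : PkgV0.{u} := by
  intro F _ h2 a b hab M hA hB
  have hM : M = !![M 0 0, M 0 1; M 1 0, M 1 1] := by
    ext i j
    fin_cases i <;> fin_cases j <;> rfl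
  generalize M 0 0 = m11 at hM
  generalize M 0 1 = m12 at hM
  generalize M 1 0 = m21 at hM
  generalize M 1 1 = m22 at hM
  subst hM
  rw [Matrix.mul_fin_two, Matrix.mul_fin_two] at hA
  rw [Matrix.mul_fin_two, Matrix.mul_fin_two] at hB
  rcases hA with hA | hA
  · have a00 : m11 * 0 + m12 * 1 = 0 * m11 + -1 * m21 := congrFun (congrFun hA 0) 0
    have a01 : m11 * -1 + m12 * 0 = 0 * m12 + -1 * m22 := congrFun (congrFun hA 0) 1
    have p1 : m12 = -m21 := by linear_combination a00
    have p2 : m11 = m22 := by linear_combination (-1 : F) * a01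
    subst p1 p2
    rcases hB with hB | hB
    · have b00 : m11 * a + -m21 * b = a * m11 + b * m21 := congrFun (congrFun hB 0) 0
      have b01 : m11 * b + -m21 * -a = a * -m21 + b * m11 := congrFun (congrFun hB 0) 1
      have hby : b * m21 = 0 := two_cancel h2 (by linear_combination (-1 : F) * b00)
      have hay : a * m21 = 0 := two_cancel h2 (by linear_combination b01)
      have hy : m21 = 0 := by linear_combination m21 * hab - a * hay - b * hby
      subst hy
      refine ⟨m11, Or.inl ?_⟩
      ext i j
      fin_cases i <;> fin_cases j <;> simp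
    · have b00 : m11 * a + -m21 * b = -(a * m11 + b * m21) := congrFun (congrFun hB 0) 0
      have b01 : m11 * b + -m21 * -a = -(a * -m21 + b * m11) := congrFun (congrFun hB 0) 1
      have hax : a * m11 = 0 := two_cancel h2 (by linear_combination b00)
      have hbx : b * m11 = 0 := two_cancel h2 (by linear_combination b01)
      have hx : m11 = 0 := by linear_combination m11 * hab - a * hax - b * hbx
      subst hx
      refine ⟨m21, Or.inr (Or.inl ?_)⟩
      ext i j
      fin_cases i <;> fin_cases j <;> simp
  · have a00 : m11 * 0 + m12 * 1 = -(0 * m11 + -1 * m21) := congrFun (congrFun hA 0) 0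
    have a01 : m11 * -1 + m12 * 0 = -(0 * m12 + -1 * m22) := congrFun (congrFun hA 0) 1
    have p1 : m12 = m21 := by linear_combination a00
    have p2 : m22 = -m11 := by linear_combination (-1 : F) * a01
    subst p1 p2
    rcases hB with hB | hB
    · have b01 : m11 * b + m12 * -a = a * m12 + b * -m11 := congrFun (congrFun hB 0) 1
      have e' : b * m11 - a * m12 = 0 := two_cancel h2 (by linear_combination b01)
      obtain ⟨c, hc⟩ : ∃ c : F, c = -(a * m11 + b * m12) := ⟨_, rfl⟩
      have hx : m11 = c * a := by rw [hc]; linear_combination m11 * hab - b * e'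
      have hy : m12 = c * b := by rw [hc]; linear_combination m12 * hab + a * e'
      refine ⟨c, Or.inr (Or.inr (Or.inl ?_))⟩
      rw [hx, hy]
      ext i j
      fin_cases i <;> fin_cases j <;> simp
    · have b00 : m11 * a + m12 * b = -(a * m11 + b * m12) := congrFun (congrFun hB 0) 0
      have e' : a * m11 + b * m12 = 0 := two_cancel h2 (by linear_combination b00)
      obtain ⟨c, hc⟩ : ∃ c : F, c = b * m11 - a * m12 := ⟨_, rfl⟩
      have hx : m11 = c * -b := by rw [hc]; linear_combination m11 * hab - a * e'
      have hy : m12 = c * a := by rw [hc]; linear_combination m12 * hab - b * e'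
      refine ⟨c, Or.inr (Or.inr (Or.inr ?_))⟩
      rw [hx, hy]
      ext i j
      fin_cases i <;> fin_cases j <;> simp

end Cfsg.Agent.Lib.Helper84.JR
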